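import Mathlib

/-!
A polynomial norm lemma: over a finite field, for a binary quadratic form `x² + u x y + v y²` with non-zero
discriminant, and a polynomial `f` prime to `X`, the class of `X` modulo `f` is a value of the form.
-/

set_option autoImplicit false

namespace Cfsg.Agent.Lib.UConj

open Polynomial

section field

variable {L : Type*} [Field L] [Finite L]

/-- Over a finite field a binary form with non-zero discriminant represents everything. -/
lemma exists_form_eq (u v : L) (hΔ : 4 * v - u ^ 2 ≠ 0) (c : L) : ∃ x y : L, x ^ 2 + u * x * y + v * y ^ 2 = c := by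
  classical
  letI : Fintype L := Fintype.ofFinite L
  by_cases h2 : ringChar L = 2
  · obtain ⟨r, hr⟩ := FiniteField.isSquare_of_char_two h2 c
    refine ⟨r, 0, ?_⟩
    rw [hr]
    ring
  · have hodd : Fintype.card L % 2 = 1 := FiniteField.odd_card_of_char_ne_two h2
    have h20 : (2 : L) ≠ 0 := Ring.two_ne_zero h2
    have hf : (X ^ 2 - C (4 * c) : L[X]).degree = 2 := degree_X_pow_sub_C (by norm_num) _
    have hg : (C (4 * v - u ^ 2) * X ^ 2 : L[X]).degree = 2 := by
      rw [degree_C_mul_X_pow 2 hΔ]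
      rfl
    obtain ⟨a, b, hab⟩ := FiniteField.exists_root_sum_quadratic hf hg hodd
    simp only [eval_sub, eval_pow, eval_X, eval_C, eval_mul] at hab
    refine ⟨(a - u * b) / 2, b, ?_⟩
    field_simp
    linear_combination hab

end field

variable {F : Type*} [Field F] [Finite F]

/-- The form. -/
noncomputable def T (u v : F) (a b : F[X]) : F[X] := a ^ 2 + C u * a * b + C v * b ^ 2

lemma exists_T_prime (u v : F) (hΔ : 4 * v - u ^ 2 ≠ 0) {p : F[X]} (hp : Irreducible p) :
    ∃ a b : F[X], p ∣ T u v a b - X := by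
  classical
  haveI : Fact (Irreducible p) := ⟨hp⟩
  have hp0 : p ≠ 0 := hp.ne_zero
  haveI : Module.Finite F (AdjoinRoot p) := (AdjoinRoot.powerBasis hp0).finite
  haveI : Finite (AdjoinRoot p) := Module.finite_of_finite F
  have hinj : Function.Injective (AdjoinRoot.of p) := (AdjoinRoot.of p).injective
  have hΔ' : 4 * AdjoinRoot.of p v - (AdjoinRoot.of p u) ^ 2 ≠ 0 := by
    intro h
    apply hΔ
    apply hinj
    rw [map_zero, map_sub, map_mul, map_pow, map_ofNat]
    exact h
  obtain ⟨x, y, hxy⟩ := exists_form_eq (AdjoinRoot.of p u) (AdjoinRoot.of p v) hΔ' (AdjoinRoot.root p)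
  obtain ⟨a, rfl⟩ := AdjoinRoot.mk_surjective x
  obtain ⟨b, rfl⟩ := AdjoinRoot.mk_surjective y
  refine ⟨a, b, ?_⟩
  rw [← AdjoinRoot.mk_eq_zero]
  simp only [T, map_sub, map_add, map_mul, map_pow, AdjoinRoot.mk_X, AdjoinRoot.mk_C]
  rw [sub_eq_zero]
  exact hxy

lemma exists_T_step (u v : F) (hΔ : 4 * v - u ^ 2 ≠ 0) {p : F[X]} (hp : Irreducible p) (hX : ¬ p ∣ X) (j : ℕ) {a b : F[X]}
    (h : p ^ (j + 1) ∣ T u v a b - X) : ∃ a' b' : F[X], p ^ (j + 2) ∣ T u v a' b' - X := by
  obtain ⟨c, hc⟩ := h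
  by_cases h1 : p ∣ 2 * a + C u * b
  · by_cases h2 : p ∣ C u * a + 2 * C v * b
    · exfalso
      have hunit : IsUnit (C (4 * v - u ^ 2) : F[X]) := isUnit_C.mpr (IsUnit.mk0 _ hΔ)
      have ha : p ∣ a := by
        have h3 : p ∣ C (4 * v - u ^ 2) * a := by
          have h4 : (C (4 * v - u ^ 2) * a : F[X]) = 2 * C v * (2 * a + C u * b) - C u * (C u * a + 2 * C v * b) := by
            simp only [map_sub, map_mul, map_pow, C_ofNat]
            ring
          rw [h4]
          exact dvd_sub (Dvd.dvd.mul_left h1 _) (Dvd.dvd.mul_left h2 _)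
        exact (hunit.dvd_mul_left).mp h3
      have hb : p ∣ b := by
        have h3 : p ∣ C (4 * v - u ^ 2) * b := by
          have h4 : (C (4 * v - u ^ 2) * b : F[X]) = 2 * (C u * a + 2 * C v * b) - C u * (2 * a + C u * b) := by
            simp only [map_sub, map_mul, map_pow, C_ofNat]
            ring
          rw [h4]
          exact dvd_sub (Dvd.dvd.mul_left h2 _) (Dvd.dvd.mul_left h1 _)
        exact (hunit.dvd_mul_left).mp h3
      apply hX
      have h5 : p ∣ T u v a b := by
        unfold T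
        exact dvd_add (dvd_add (dvd_pow ha (by norm_num)) (Dvd.dvd.mul_right (Dvd.dvd.mul_left ha _) _))
          (Dvd.dvd.mul_left (dvd_pow hb (by norm_num)) _)
      have h6 : p ∣ T u v a b - X := by
        rw [hc]
        exact Dvd.dvd.mul_right (dvd_pow_self p (by omega)) _
      have h7 := dvd_sub h5 h6
      simpa using h7
    · have hcop : IsCoprime p (C u * a + 2 * C v * b) := (Irreducible.coprime_iff_not_dvd hp).mpr h2
      obtain ⟨w, s, hws⟩ := hcop
      refine ⟨a, b - c * s * p ^ (j + 1), ?_⟩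
      refine ⟨c * w + C v * (c * s) ^ 2 * p ^ j, ?_⟩
      unfold T at hc ⊢
      linear_combination hc - (p ^ (j + 1) * c) * hws
  · have hcop : IsCoprime p (2 * a + C u * b) := (Irreducible.coprime_iff_not_dvd hp).mpr h1
    obtain ⟨w, s, hws⟩ := hcop
    refine ⟨a - c * s * p ^ (j + 1), b, ?_⟩
    refine ⟨c * w + (c * s) ^ 2 * p ^ j, ?_⟩
    unfold T at hc ⊢
    linear_combination hc - (p ^ (j + 1) * c) * hws

lemma T_add_mul (u v : F) (a b f α β : F[X]) :
    ∃ W, T u v (a + f * α) (b + f * β) = T u v a b + f * W := by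
  refine ⟨2 * a * α + f * α ^ 2 + C u * (a * β + α * b + f * α * β) + C v * (2 * b * β + f * β ^ 2), ?_⟩
  unfold T
  ring

/-- **The norm lemma.** -/
theorem exists_T (u v : F) (hΔ : 4 * v - u ^ 2 ≠ 0) (f : F[X]) (hf : IsCoprime f X) :
    ∃ a b : F[X], f ∣ T u v a b - X := by
  classical
  revert hf
  induction f using UniqueFactorizationMonoid.induction_on_coprime with
  | h0 =>
    intro h
    exfalso
    have : IsUnit (X : F[X]) := by simpa using (isCoprime_zero_left.mp h)
    exact not_isUnit_X this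
  | h1 hx =>
    intro _
    exact ⟨0, 0, hx.dvd⟩
  | @hpr p i hp =>
    intro h
    have hpi := hp.irreducible
    cases i with
    | zero => exact ⟨0, 0, by simp⟩
    | succ i =>
      have hX : ¬ p ∣ X := by
        intro hd
        have h1 : IsCoprime p X := IsCoprime.of_mul_left_left (by rwa [pow_succ'] at h)
        exact hpi.not_isUnit (h1.isUnit_of_dvd' dvd_rfl hd)
      induction i with
      | zero =>
        obtain ⟨a, b, hab⟩ := exists_T_prime u v hΔ hpi
        exact ⟨a, b, by simpa using hab⟩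
      | succ i ih =>
        have h' : IsCoprime (p ^ (i + 1)) X := by
          rw [pow_succ] at h
          exact IsCoprime.of_mul_left_left h
        obtain ⟨a, b, hab⟩ := ih h'
        exact exists_T_step u v hΔ hpi hX i hab
  | hcp hrel hx hy =>
    rename_i x y
    intro h
    obtain ⟨a₁, b₁, h₁⟩ := hx (IsCoprime.of_mul_left_left h)
    obtain ⟨a₂, b₂, h₂⟩ := hy (IsCoprime.of_mul_left_right h)
    have hco : IsCoprime x y := by
      have hPID : IsCoprime x y := hrel.isCoprime
      exact hPID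
    obtain ⟨e₁, e₂, he⟩ := hco
    refine ⟨a₁ * (e₂ * y) + a₂ * (e₁ * x), b₁ * (e₂ * y) + b₂ * (e₁ * x), ?_⟩
    apply IsCoprime.mul_dvd ⟨e₁, e₂, he⟩
    · obtain ⟨W, hW⟩ := T_add_mul u v a₁ b₁ x ((a₂ - a₁) * e₁) ((b₂ - b₁) * e₁)
      have h3 : a₁ * (e₂ * y) + a₂ * (e₁ * x) = a₁ + x * ((a₂ - a₁) * e₁) := by
        linear_combination a₁ * he
      have h4 : b₁ * (e₂ * y) + b₂ * (e₁ * x) = b₁ + x * ((b₂ - b₁) * e₁) := by
        linear_combination b₁ * he
      rw [h3, h4, hW, add_sub_right_comm]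
      exact dvd_add h₁ (Dvd.intro _ rfl)
    · obtain ⟨W, hW⟩ := T_add_mul u v a₂ b₂ y ((a₁ - a₂) * e₂) ((b₁ - b₂) * e₂)
      have h3 : a₁ * (e₂ * y) + a₂ * (e₁ * x) = a₂ + y * ((a₁ - a₂) * e₂) := by
        linear_combination a₂ * he
      have h4 : b₁ * (e₂ * y) + b₂ * (e₁ * x) = b₂ + y * ((b₁ - b₂) * e₂) := by
        linear_combination b₂ * he
      rw [h3, h4, hW, add_sub_right_comm]
      exact dvd_add h₂ (Dvd.intro _ rfl)

end Cfsg.Agent.Lib.UConj
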