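import Mathlib
import Cfsg.Agent.Lib.UConj.Norm

/-!
Hilbert 90 for finite commutative rings with an involution of the second kind.
-/

set_option autoImplicit false

namespace Cfsg.Agent.Lib.UConj

open Polynomial

variable {S : Type*} [CommRing S] [Finite S] {F₀ : Type*} [Field F₀] [Finite F₀]

/-- Fixed units are norms. -/
lemma exists_norm_of_fixed (τ : S →+* S) (ι : F₀ →+* S) (hι : ∀ c, τ (ι c) = ι c)
    (l : S) (u v : F₀) (hu : l + τ l = ι u) (hv : l * τ l = ι v) (hΔ : 4 * v - u ^ 2 ≠ 0)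
    (x : Sˣ) (hx : τ x = x) : ∃ w : S, w * τ w = x := by
  classical
  have hN : 0 < orderOf x := orderOf_pos x
  have hcop : IsCoprime ((X : F₀[X]) ^ orderOf x - 1) X := by
    apply IsCoprime.symm
    rw [Irreducible.coprime_iff_not_dvd irreducible_X, Polynomial.X_dvd_iff]
    rw [Polynomial.coeff_sub, Polynomial.coeff_X_pow, Polynomial.coeff_one_zero, if_neg hN.ne]
    simp
  obtain ⟨a, b, w, hab⟩ := exists_T u v hΔ _ hcop
  have hτe : ∀ P : F₀[X], τ (eval₂ ι (x : S) P) = eval₂ ι (x : S) P := by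
    intro P
    rw [hom_eval₂, hx]
    congr 1
    ext c
    exact hι c
  refine ⟨eval₂ ι (x : S) a + l * eval₂ ι (x : S) b, ?_⟩
  rw [map_add, map_mul, hτe, hτe]
  have h1 := congrArg (eval₂ ι (x : S)) hab
  simp only [T, eval₂_sub, eval₂_add, eval₂_mul, eval₂_pow, eval₂_C, eval₂_X, eval₂_one] at h1
  have h2 : (x : S) ^ orderOf x = 1 := by
    rw [← Units.val_pow_eq_pow_val, pow_orderOf_eq_one, Units.val_one]
  rw [h2, sub_self, zero_mul] at h1
  linear_combination h1 + (eval₂ ι (x : S) a) * (eval₂ ι (x : S) b) * hu + (eval₂ ι (x : S) b) ^ 2 * hv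

/-- **Hilbert 90.** -/
theorem hilbert90_ring (τ : S →+* S) (hτ : ∀ x, τ (τ x) = x) (ι : F₀ →+* S) (hι : ∀ c, τ (ι c) = ι c)
    (l : S) (u v : F₀) (hu : l + τ l = ι u) (hv : l * τ l = ι v) (hΔ : 4 * v - u ^ 2 ≠ 0)
    (y : Sˣ) (hy : (y : S) * τ y = 1) : ∃ s : Sˣ, (s : S) = y * τ s := by
  classical
  let τu : Sˣ →* Sˣ := Units.map (τ : S →* S)
  have hτu : ∀ s : Sˣ, ((τu s : Sˣ) : S) = τ s := fun _ => rfl
  have hττ : ∀ s : Sˣ, τu (τu s) = s := by
    intro s
    apply Units.ext
    rw [hτu, hτu, hτ]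
  let N : Sˣ →* Sˣ :=
    { toFun := fun s => s * τu s
      map_one' := by simp
      map_mul' := fun a b => by
        simp only [map_mul]
        rw [mul_mul_mul_comm] }
  let L : Sˣ →* Sˣ :=
    { toFun := fun s => s * (τu s)⁻¹
      map_one' := by simp
      map_mul' := fun a b => by
        simp only [map_mul, mul_inv]
        rw [mul_mul_mul_comm] }
  -- the range of `N` is the kernel of `L`
  have hrange : N.range = L.ker := by
    ext x
    rw [MonoidHom.mem_range, MonoidHom.mem_ker]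
    constructor
    · rintro ⟨s, rfl⟩
      change (s * τu s) * (τu (s * τu s))⁻¹ = 1
      rw [map_mul, hττ, mul_comm s, mul_inv_cancel]
    · intro hx
      have hx' : τu x = x := by
        have h1 : x * (τu x)⁻¹ = 1 := hx
        rw [mul_inv_eq_one] at h1
        exact h1.symm
      have hx'' : τ (x : S) = x := by
        rw [← hτu, hx']
      obtain ⟨w, hw⟩ := exists_norm_of_fixed τ ι hι l u v hu hv hΔ x hx''
      have hwu : IsUnit w := by
        apply isUnit_of_mul_isUnit_left (y := τ w)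
        rw [hw]
        exact x.isUnit
      obtain ⟨w', rfl⟩ := hwu
      refine ⟨w', ?_⟩
      apply Units.ext
      exact hw
  have hle : L.range ≤ N.ker := by
    rintro _ ⟨s, rfl⟩
    rw [MonoidHom.mem_ker]
    change (s * (τu s)⁻¹) * τu (s * (τu s)⁻¹) = 1
    rw [map_mul, map_inv, hττ]
    calc s * (τu s)⁻¹ * (τu s * s⁻¹) = s * ((τu s)⁻¹ * τu s) * s⁻¹ := by group
      _ = 1 := by simp
  have hcard : Nat.card N.ker ≤ Nat.card L.range := by
    have h1 := Subgroup.card_mul_index N.ker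
    have h2 := Subgroup.card_mul_index L.ker
    have h3 : N.ker.index = Nat.card N.range := Subgroup.index_ker N
    have h4 : L.ker.index = Nat.card L.range := Subgroup.index_ker L
    rw [h3, hrange] at h1
    rw [h4] at h2
    have h5 : 0 < Nat.card L.ker := Nat.card_pos
    apply le_of_eq
    apply Nat.eq_of_mul_eq_mul_right h5
    rw [h1, mul_comm, h2]
  have heq : L.range = N.ker := Subgroup.eq_of_le_of_card_ge hle hcard
  have hyk : y ∈ N.ker := by
    rw [MonoidHom.mem_ker]
    apply Units.ext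
    exact hy
  rw [← heq] at hyk
  obtain ⟨s, hs⟩ := hyk
  refine ⟨s, ?_⟩
  have h1 : s * (τu s)⁻¹ = y := hs
  have h2 : s = y * τu s := by
    rw [← h1]
    group
  have h3 := congrArg (Units.val) h2
  rw [Units.val_mul] at h3
  exact h3

end Cfsg.Agent.Lib.UConj
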