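import Mathlib
import Cfsg.Agent.Lib.UConj.Norm
import Cfsg.Agent.Lib.KS2.IsoSU

/-!
An invertible Hermitian matrix over a finite field is `x* x` for a polynomial `x` in it; hence conjugacy in `GU_n(q)` is
conjugacy in `GL_n(q²)`.
-/

set_option autoImplicit false

namespace Cfsg.Agent.Lib.UConj

open Polynomial Matrix Cfsg.Agent.Lib.Classical Cfsg.Agent.Lib.KS2.IsoCl

variable {K : Type*} [Field K] [Fintype K] {q n : ℕ}

lemma hAdj_add (hF : Fintype.card K = q ^ 2) (A B : Matrix (Fin n) (Fin n) K) :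
    hAdj hF (A + B) = hAdj hF A + hAdj hF B := by
  ext i j
  simp only [hAdj_apply, Matrix.add_apply]
  exact pow_q_add hF _ _

lemma hAdj_smul (hF : Fintype.card K = q ^ 2) (c : K) (A : Matrix (Fin n) (Fin n) K) :
    hAdj hF (c • A) = (c ^ q) • hAdj hF A := by
  ext i j
  simp only [hAdj_apply, Matrix.smul_apply, smul_eq_mul]
  exact mul_pow _ _ _

lemma hAdj_one (hF : Fintype.card K = q ^ 2) : hAdj hF (1 : Matrix (Fin n) (Fin n) K) = 1 := by
  rw [hAdj, map_one, Matrix.transpose_one]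

lemma hAdj_pow (hF : Fintype.card K = q ^ 2) (A : Matrix (Fin n) (Fin n) K) (k : ℕ) :
    hAdj hF (A ^ k) = (hAdj hF A) ^ k := by
  induction k with
  | zero => simp [hAdj_one]
  | succ k ih => rw [pow_succ, hAdj_mul, ih, pow_succ']

lemma hAdj_aeval (hF : Fintype.card K = q ^ 2) (h : Matrix (Fin n) (Fin n) K) (P : K[X]) :
    hAdj hF (aeval h P) = aeval (hAdj hF h) (P.map (conjQ hF)) := by
  induction P using Polynomial.induction_on' with
  | add p r hp hr =>
    rw [map_add, hAdj_add, hp, hr, Polynomial.map_add, map_add]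
  | monomial k c =>
    rw [aeval_monomial, Polynomial.map_monomial, aeval_monomial, ← Algebra.smul_def 
      ] 
    rw [hAdj_smul, hAdj_pow, Algebra.smul_def]
    rfl

lemma commute_aeval {A h : Matrix (Fin n) (Fin n) K} (hc : A * h = h * A) (P : K[X]) :
    A * aeval h P = aeval h P * A := by
  induction P using Polynomial.induction_on' with
  | add p r hp hr =>
    rw [map_add, mul_add, add_mul, hp, hr]
  | monomial k c =>
    rw [aeval_monomial]
    have h1 : Commute A (h ^ k) := Commute.pow_right hc k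
    have h2 : Commute A (algebraMap K (Matrix (Fin n) (Fin n) K) c) := (Algebra.commutes c A).symm
    exact (h2.mul_right h1)

/-- **Hermitian matrices are norms.** -/
theorem exists_norm_of_herm (hF : Fintype.card K = q ^ 2) (h : Matrix (Fin n) (Fin n) K) (hh : hAdj hF h = h)
    (hdet : h.det ≠ 0) : ∃ x : Matrix (Fin n) (Fin n) K, hAdj hF x * x = h ∧ ∀ A, A * h = h * A → A * x = x * A := by
  classical
  let σ := conjQ hF
  let F₀ : Subfield K := σ.eqLocusField (RingHom.id K)
  let θ : F₀ →+* K := F₀.subtype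
  have hσθ : σ.comp θ = θ := by
    ext c
    exact c.2
  obtain ⟨l, hl⟩ : ∃ l : K, σ l ≠ l := by
    by_contra hcon
    push Not at hcon
    exact conjQ_ne_id hF (RingHom.ext hcon)
  have hσσ : ∀ a, σ (σ a) = a := conjQ_conjQ hF
  let u₀ : F₀ := ⟨l + σ l, by
    change σ (l + σ l) = l + σ l
    rw [map_add, hσσ, add_comm]⟩
  let v₀ : F₀ := ⟨l * σ l, by
    change σ (l * σ l) = l * σ l
    rw [map_mul, hσσ, mul_comm]⟩
  have hΔ : 4 * v₀ - u₀ ^ 2 ≠ 0 := by
    intro he
    have h1 : θ (4 * v₀ - u₀ ^ 2) = 0 := by rw [he, map_zero]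
    simp only [map_sub, map_mul, map_pow, map_ofNat] at h1
    have h2 : θ u₀ = l + σ l := rfl
    have h3 : θ v₀ = l * σ l := rfl
    rw [h2, h3] at h1
    have h4 : (σ l - l) ^ 2 = 0 := by linear_combination -h1
    exact hl (sub_eq_zero.mp (pow_eq_zero_iff (by norm_num) |>.mp h4))
  -- the characteristic polynomial has coefficients in the fixed field
  have hχσ : h.charpoly.map σ = h.charpoly := by
    have h1 : (σ.mapMatrix h).charpoly = h.charpoly.map σ := (Matrix.charpoly_map h σ)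
    have h2 : σ.mapMatrix h = hᵀ := by
      conv_rhs => rw [← hh]
      rw [hAdj, Matrix.transpose_transpose]
    rw [← h1, h2, Matrix.charpoly_transpose]
  have hlift : h.charpoly ∈ Polynomial.lifts θ := by
    rw [Polynomial.lifts_iff_coeff_lifts]
    intro k
    have h1 := congrArg (fun P => P.coeff k) hχσ
    simp only [Polynomial.coeff_map] at h1
    exact ⟨⟨h.charpoly.coeff k, h1⟩, rfl⟩
  obtain ⟨χ₀, hχ₀⟩ := (Polynomial.mem_lifts _).mp hlift
  have hcop : IsCoprime χ₀ (X : F₀[X]) := by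
    apply IsCoprime.symm
    rw [Irreducible.coprime_iff_not_dvd irreducible_X, Polynomial.X_dvd_iff]
    intro h0
    have h1 : h.charpoly.coeff 0 = 0 := by
      rw [← hχ₀, Polynomial.coeff_map, h0, map_zero]
    have h2 := Matrix.det_eq_sign_charpoly_coeff h
    rw [h1, mul_zero] at h2
    exact hdet h2
  obtain ⟨a, b, w, hab⟩ := exists_T u₀ v₀ hΔ χ₀ hcop
  set P : K[X] := a.map θ + C l * b.map θ with hP
  refine ⟨aeval h P, ?_, fun A hA => commute_aeval hA P⟩
  rw [hAdj_aeval, hh]
  rw [← map_mul]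
  have h1 : P.map σ * P = X + h.charpoly * w.map θ := by
    have h3 : (a.map θ).map σ = a.map θ := by
      rw [Polynomial.map_map, hσθ]
    have h4 : (b.map θ).map σ = b.map θ := by
      rw [Polynomial.map_map, hσθ]
    have h5 : P.map σ = a.map θ + C (σ l) * b.map θ := by
      rw [hP, Polynomial.map_add, Polynomial.map_mul, Polynomial.map_C, h3, h4]
    have h6 := congrArg (Polynomial.map θ) hab
    simp only [T, Polynomial.map_sub, Polynomial.map_add, Polynomial.map_mul, Polynomial.map_pow, Polynomial.map_C,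
      Polynomial.map_X, hχ₀] at h6
    have h7 : θ u₀ = l + σ l := rfl
    have h8 : θ v₀ = l * σ l := rfl
    rw [h7, h8] at h6
    rw [h5, hP]
    simp only [map_add, map_mul] at h6
    linear_combination h6
  rw [h1, map_add, map_mul, aeval_X, Matrix.aeval_self_charpoly, zero_mul, add_zero]

/-- Conjugacy in `GU` from conjugacy of the matrices. -/
theorem exists_unitary_conj (hF : Fintype.card K = q ^ 2) (A B g : Matrix (Fin n) (Fin n) K)
    (hA : hAdj hF A * A = 1) (hB : hAdj hF B * B = 1) (hg : g.det ≠ 0) (hc : g * A = B * g) :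
    ∃ c : Matrix (Fin n) (Fin n) K, hAdj hF c * c = 1 ∧ c * A = B * c := by
  classical
  have hA' : A * hAdj hF A = 1 := mul_eq_one_comm.mp hA
  have hB' : B * hAdj hF B = 1 := mul_eq_one_comm.mp hB
  set h := hAdj hF g * g with hh
  have hhh : hAdj hF h = h := by
    rw [hh, hAdj_mul, hAdj_hAdj]
  have hdet : h.det ≠ 0 := by
    rw [hh, Matrix.det_mul, det_hAdj]
    refine mul_ne_zero ?_ hg
    intro h0
    apply hg
    have h1 := congrArg (conjQ hF) h0
    rwa [conjQ_conjQ, map_zero] at h1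
  have hcomm : A * h = h * A := by
    have h1 : hAdj hF A * hAdj hF g = hAdj hF g * hAdj hF B := by
      rw [← hAdj_mul, hc, hAdj_mul]
    have h2 : hAdj hF g * B = A * hAdj hF g := by
      calc hAdj hF g * B = (A * hAdj hF A) * hAdj hF g * B := by rw [hA', one_mul]
        _ = A * (hAdj hF A * hAdj hF g) * B := by rw [mul_assoc A]
        _ = A * (hAdj hF g * hAdj hF B) * B := by rw [h1]
        _ = A * hAdj hF g * (hAdj hF B * B) := by simp only [mul_assoc]
        _ = A * hAdj hF g := by rw [hB, mul_one]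
    calc A * h = (A * hAdj hF g) * g := by rw [hh, mul_assoc]
      _ = (hAdj hF g * B) * g := by rw [h2]
      _ = hAdj hF g * (B * g) := by rw [mul_assoc]
      _ = hAdj hF g * (g * A) := by rw [hc]
      _ = h * A := by rw [hh, mul_assoc]
  obtain ⟨x, hx, hxc⟩ := exists_norm_of_herm hF h hhh hdet
  have hxdet : x.det ≠ 0 := by
    intro h0
    apply hdet
    rw [← hx, Matrix.det_mul, h0, mul_zero]
  have hxu : IsUnit x.det := IsUnit.mk0 _ hxdet
  have hxA := hxc A hcomm
  have hxi : x * x⁻¹ = 1 := Matrix.mul_nonsing_inv x hxu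
  have hix : x⁻¹ * x = 1 := Matrix.nonsing_inv_mul x hxu
  have hxiA : x⁻¹ * A = A * x⁻¹ := by
    calc x⁻¹ * A = x⁻¹ * (A * (x * x⁻¹)) := by rw [hxi, mul_one]
      _ = x⁻¹ * ((A * x) * x⁻¹) := by simp only [mul_assoc]
      _ = x⁻¹ * ((x * A) * x⁻¹) := by rw [hxA]
      _ = (x⁻¹ * x) * (A * x⁻¹) := by simp only [mul_assoc]
      _ = A * x⁻¹ := by rw [hix, one_mul]
  refine ⟨g * x⁻¹, ?_, ?_⟩
  · have hadj : hAdj hF (x⁻¹) * hAdj hF x = 1 := by
      rw [← hAdj_mul, hxi, hAdj_one]
    calc hAdj hF (g * x⁻¹) * (g * x⁻¹) = hAdj hF (x⁻¹) * (hAdj hF g * g) * x⁻¹ := by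
          rw [hAdj_mul]
          simp only [mul_assoc]
      _ = hAdj hF (x⁻¹) * (hAdj hF x * x) * x⁻¹ := by rw [hx]
      _ = (hAdj hF (x⁻¹) * hAdj hF x) * (x * x⁻¹) := by simp only [mul_assoc]
      _ = 1 := by rw [hadj, hxi, one_mul]
  · calc g * x⁻¹ * A = g * (x⁻¹ * A) := by rw [mul_assoc]
      _ = g * (A * x⁻¹) := by rw [hxiA]
      _ = (g * A) * x⁻¹ := by rw [mul_assoc]
      _ = (B * g) * x⁻¹ := by rw [hc]
      _ = B * (g * x⁻¹) := by rw [mul_assoc]

end Cfsg.Agent.Lib.UConj
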