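import Mathlib
import Cfsg.Agent.Lib.UConj.Herm
import Cfsg.Agent.Lib.UConj.H90

/-!
A matrix similar to the inverse of its adjoint preserves a non-degenerate Hermitian form, hence is similar to a unitary
matrix.
-/

set_option autoImplicit false

namespace Cfsg.Agent.Lib.UConj

open Polynomial Matrix Cfsg.Agent.Lib.Classical Cfsg.Agent.Lib.KS2.IsoCl

variable {K : Type*} [Field K] [Fintype K] {q n : ℕ}

/-- A matrix `A` with `A* g A = g` for an invertible `g` preserves an invertible Hermitian matrix. -/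
theorem exists_herm_of_form (hF : Fintype.card K = q ^ 2) (A g : Matrix (Fin n) (Fin n) K) (hA : A.det ≠ 0)
    (hg : g.det ≠ 0) (hc : hAdj hF A * g * A = g) :
    ∃ h : Matrix (Fin n) (Fin n) K, hAdj hF h = h ∧ h.det ≠ 0 ∧ hAdj hF A * h * A = h := by
  classical
  have hgu : IsUnit g.det := IsUnit.mk0 _ hg
  have hAu : IsUnit A.det := IsUnit.mk0 _ hA
  have hgi : g * g⁻¹ = 1 := Matrix.mul_nonsing_inv g hgu
  have hig : g⁻¹ * g = 1 := Matrix.nonsing_inv_mul g hgu
  set gs := hAdj hF g with hgs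
  have hgsdet : gs.det ≠ 0 := by
    rw [hgs, det_hAdj]
    intro h0
    apply hg
    have h1 := congrArg (conjQ hF) h0
    rwa [conjQ_conjQ, map_zero] at h1
  have hgsu : IsUnit gs.det := IsUnit.mk0 _ hgsdet
  have hgsi : gs * gs⁻¹ = 1 := Matrix.mul_nonsing_inv gs hgsu
  have higs : gs⁻¹ * gs = 1 := Matrix.nonsing_inv_mul gs hgsu
  have hgsg : hAdj hF gs = g := by rw [hgs, hAdj_hAdj]
  -- adjoint of `g⁻¹`
  have hadji : hAdj hF g⁻¹ = gs⁻¹ := by
    symm
    apply Matrix.inv_eq_right_inv
    rw [hgs, ← hAdj_mul, hig, hAdj_one]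
  set r := g⁻¹ * gs with hr
  set ri := gs⁻¹ * g with hri
  have hrri : r * ri = 1 := by
    calc r * ri = g⁻¹ * (gs * gs⁻¹) * g := by rw [hr, hri]; simp only [mul_assoc]
      _ = 1 := by rw [hgsi, mul_one, hig]
  have hrir : ri * r = 1 := by
    calc ri * r = gs⁻¹ * (g * g⁻¹) * gs := by rw [hr, hri]; simp only [mul_assoc]
      _ = 1 := by rw [hgi, mul_one, higs]
  -- `A` commutes with `r`
  have hcs : hAdj hF A * gs * A = gs := by
    have h1 := congrArg (hAdj hF) hc
    rw [hAdj_mul, hAdj_mul, hAdj_hAdj, ← mul_assoc] at h1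
    exact h1
  have hgr : g * r = gs := by
    rw [hr, ← mul_assoc, hgi, one_mul]
  have hAsdet : (hAdj hF A * g).det ≠ 0 := by
    rw [Matrix.det_mul, det_hAdj]
    refine mul_ne_zero ?_ hg
    intro h0
    apply hA
    have h1 := congrArg (conjQ hF) h0
    rwa [conjQ_conjQ, map_zero] at h1
  have hAr : A * r = r * A := by
    have h1 : IsUnit (hAdj hF A * g) := (Matrix.isUnit_iff_isUnit_det _).mpr (IsUnit.mk0 _ hAsdet)
    apply h1.mul_left_cancel
    calc hAdj hF A * g * (A * r) = (hAdj hF A * g * A) * r := by simp only [mul_assoc]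
      _ = gs := by rw [hc, hgr]
      _ = hAdj hF A * (g * r) * A := by rw [hgr, hcs]
      _ = hAdj hF A * g * (r * A) := by simp only [mul_assoc]
  let dag : Matrix (Fin n) (Fin n) K → Matrix (Fin n) (Fin n) K := fun x => g⁻¹ * hAdj hF x * g
  have hdag_add : ∀ x y, dag (x + y) = dag x + dag y := by
    intro x y
    simp only [dag, hAdj_add, mul_add, add_mul]
  have hdag_mul : ∀ x y, dag (x * y) = dag y * dag x := by
    intro x y
    simp only [dag, hAdj_mul]
    calc g⁻¹ * (hAdj hF y * hAdj hF x) * g = g⁻¹ * hAdj hF y * (g * g⁻¹) * hAdj hF x * g := by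
          rw [hgi, mul_one]
          simp only [mul_assoc]
      _ = _ := by simp only [mul_assoc]
  have hdag_alg : ∀ c : K, dag (algebraMap K _ c) = algebraMap K _ (c ^ q) := by
    intro c
    have h1 : hAdj hF (algebraMap K (Matrix (Fin n) (Fin n) K) c) = algebraMap K _ (c ^ q) := by
      rw [Algebra.algebraMap_eq_smul_one, hAdj_smul, hAdj_one, ← Algebra.algebraMap_eq_smul_one]
    simp only [dag]
    rw [h1, ← Algebra.commutes, mul_assoc, hig, mul_one]
  have hdag_r : dag r = ri := by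
    simp only [dag]
    rw [hr, hAdj_mul, hgsg, hadji]
    calc g⁻¹ * (g * gs⁻¹) * g = (g⁻¹ * g) * gs⁻¹ * g := by simp only [mul_assoc]
      _ = ri := by rw [hig, one_mul]
  have hdag_dag : ∀ x, dag (dag x) = r * x * ri := by
    intro x
    simp only [dag]
    rw [hAdj_mul, hAdj_mul, hAdj_hAdj, hadji, ← hgs]
    rw [hr, hri]
    simp only [mul_assoc]
  -- the commutative algebra
  let S : Subalgebra K (Matrix (Fin n) (Fin n) K) := Algebra.adjoin K {r}
  have hrS : r ∈ S := Algebra.subset_adjoin rfl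
  have hriS : ri ∈ S := by
    let u : (Matrix (Fin n) (Fin n) K)ˣ := ⟨r, ri, hrri, hrir⟩
    have hN : 0 < orderOf u := orderOf_pos u
    have h1 : r ^ orderOf u = 1 := by
      have h2 : ((u ^ orderOf u : (Matrix (Fin n) (Fin n) K)ˣ) : Matrix (Fin n) (Fin n) K) = 1 := by
        rw [pow_orderOf_eq_one, Units.val_one]
      rw [Units.val_pow_eq_pow_val] at h2
      exact h2
    obtain ⟨N, hN'⟩ := Nat.exists_eq_succ_of_ne_zero hN.ne'
    rw [hN', pow_succ] at h1
    have h4 : ri = r ^ N := by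
      calc ri = (r ^ N * r) * ri := by rw [h1, one_mul]
        _ = r ^ N := by rw [mul_assoc, hrri, mul_one]
    rw [h4]
    exact S.pow_mem hrS N
  have hcomm : ∀ a ∈ ({r} : Set (Matrix (Fin n) (Fin n) K)), ∀ b ∈ ({r} : Set (Matrix (Fin n) (Fin n) K)), a * b = b * a := by
    rintro a rfl b rfl
    rfl
  have hdagS : ∀ x (hx : x ∈ S), dag x ∈ S := by
    intro x hx
    induction hx using Algebra.adjoin_induction with
    | mem x hx =>
      rw [Set.mem_singleton_iff] at hx
      rw [hx, hdag_r]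
      exact hriS
    | algebraMap c =>
      rw [hdag_alg]
      exact S.algebraMap_mem _
    | add x y hx hy ihx ihy =>
      rw [hdag_add]
      exact S.add_mem ihx ihy
    | mul x y hx hy ihx ihy =>
      rw [hdag_mul]
      exact S.mul_mem ihy ihx
  have hcr : ∀ x (hx : x ∈ S), r * x = x * r := by
    intro x hx
    induction hx using Algebra.adjoin_induction with
    | mem x hx =>
      rw [Set.mem_singleton_iff] at hx
      rw [hx]
    | algebraMap c => exact (Algebra.commutes c r).symm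
    | add x y hx hy ihx ihy => rw [mul_add, add_mul, ihx, ihy]
    | mul x y hx hy ihx ihy => rw [← mul_assoc, ihx, mul_assoc, ihy, mul_assoc]
  have hcA : ∀ x (hx : x ∈ S), A * x = x * A := by
    intro x hx
    induction hx using Algebra.adjoin_induction with
    | mem x hx =>
      rw [Set.mem_singleton_iff] at hx
      rw [hx]
      exact hAr
    | algebraMap c => exact (Algebra.commutes c A).symm
    | add x y hx hy ihx ihy => rw [mul_add, add_mul, ihx, ihy]
    | mul x y hx hy ihx ihy => rw [← mul_assoc, ihx, mul_assoc, ihy, mul_assoc]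
  letI instS : CommRing S := Algebra.adjoinCommRingOfComm K hcomm
  haveI : Finite S := inferInstance
  let τ : S →+* S :=
    { toFun := fun x => ⟨dag x.1, hdagS x.1 x.2⟩
      map_one' := by
        apply Subtype.ext
        change dag 1 = 1
        have := hdag_alg 1
        simpa using this
      map_mul' := fun x y => by
        apply Subtype.ext
        change dag (x.1 * y.1) = dag x.1 * dag y.1
        rw [hdag_mul]
        have h1 := mul_comm (⟨dag y.1, hdagS y.1 y.2⟩ : S) ⟨dag x.1, hdagS x.1 x.2⟩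
        exact congrArg Subtype.val h1
      map_zero' := by
        apply Subtype.ext
        change dag 0 = 0
        have := hdag_alg 0
        have hq : q ≠ 0 := by
          have := one_lt_q hF
          omega
        simpa [hq] using this
      map_add' := fun x y => by
        apply Subtype.ext
        exact hdag_add x.1 y.1 }
  have hττ : ∀ x, τ (τ x) = x := by
    intro x
    apply Subtype.ext
    change dag (dag x.1) = x.1
    rw [hdag_dag, hcr x.1 x.2, mul_assoc, hrri, mul_one]
  -- the fixed field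
  let σ := conjQ hF
  let F₀ : Subfield K := σ.eqLocusField (RingHom.id K)
  have hσσ : ∀ a, σ (σ a) = a := conjQ_conjQ hF
  obtain ⟨l, hl⟩ : ∃ l : K, σ l ≠ l := by
    by_contra hcon
    push Not at hcon
    exact conjQ_ne_id hF (RingHom.ext hcon)
  let u₀ : F₀ := ⟨l + σ l, by
    change σ (l + σ l) = l + σ l
    rw [map_add, hσσ, add_comm]⟩
  let v₀ : F₀ := ⟨l * σ l, by
    change σ (l * σ l) = l * σ l
    rw [map_mul, hσσ, mul_comm]⟩
  have hΔ : 4 * v₀ - u₀ ^ 2 ≠ 0 := by
    intro he
    have h1 : F₀.subtype (4 * v₀ - u₀ ^ 2) = 0 := by rw [he, map_zero]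
    simp only [map_sub, map_mul, map_pow, map_ofNat] at h1
    have h2 : F₀.subtype u₀ = l + σ l := rfl
    have h3 : F₀.subtype v₀ = l * σ l := rfl
    rw [h2, h3] at h1
    have h4 : (σ l - l) ^ 2 = 0 := by linear_combination -h1
    exact hl (sub_eq_zero.mp (pow_eq_zero_iff (by norm_num) |>.mp h4))
  let αS : K → S := fun c => ⟨algebraMap K _ c, S.algebraMap_mem c⟩
  let ι : F₀ →+* S :=
    { toFun := fun c => αS c.1
      map_one' := Subtype.ext (map_one (algebraMap K (Matrix (Fin n) (Fin n) K)))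
      map_mul' := fun x y => Subtype.ext (map_mul (algebraMap K (Matrix (Fin n) (Fin n) K)) x.1 y.1)
      map_zero' := Subtype.ext (map_zero (algebraMap K (Matrix (Fin n) (Fin n) K)))
      map_add' := fun x y => Subtype.ext (map_add (algebraMap K (Matrix (Fin n) (Fin n) K)) x.1 y.1) }
  have hτα : ∀ c : K, τ (αS c) = αS (σ c) := by
    intro c
    apply Subtype.ext
    exact hdag_alg c
  have hι : ∀ c, τ (ι c) = ι c := by
    intro c
    change τ (αS c.1) = αS c.1
    rw [hτα]
    have h1 : σ c.1 = c.1 := c.2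
    rw [h1]
  have hu : αS l + τ (αS l) = ι u₀ := by
    rw [hτα]
    apply Subtype.ext
    exact (map_add (algebraMap K (Matrix (Fin n) (Fin n) K)) l (σ l)).symm
  have hv : αS l * τ (αS l) = ι v₀ := by
    rw [hτα]
    apply Subtype.ext
    exact (map_mul (algebraMap K (Matrix (Fin n) (Fin n) K)) l (σ l)).symm
  let y : Sˣ := ⟨⟨r, hrS⟩, ⟨ri, hriS⟩, Subtype.ext hrri, Subtype.ext hrir⟩
  have hy : (y : S) * τ y = 1 := by
    apply Subtype.ext
    change r * dag r = 1
    rw [hdag_r, hrri]
  obtain ⟨s, hs⟩ := hilbert90_ring τ hττ ι hι (αS l) u₀ v₀ hu hv hΔ y hy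
  set w : Matrix (Fin n) (Fin n) K := (s : S).1 with hw
  have hwS : w ∈ S := (s : S).2
  have hwr : w = r * dag w := congrArg Subtype.val hs
  have hwdet : w.det ≠ 0 := by
    have h1 : w * ((s⁻¹ : Sˣ) : S).1 = 1 := by
      have h2 : (s : S) * ((s⁻¹ : Sˣ) : S) = 1 := by simp
      exact congrArg Subtype.val h2
    have h2 := congrArg Matrix.det h1
    rw [Matrix.det_mul, Matrix.det_one] at h2
    exact left_ne_zero_of_mul_eq_one h2
  refine ⟨g * w, ?_, ?_, ?_⟩
  · have h1 : hAdj hF w = g * dag w * g⁻¹ := by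
      simp only [dag]
      calc hAdj hF w = (g * g⁻¹) * hAdj hF w * (g * g⁻¹) := by rw [hgi, one_mul, mul_one]
        _ = _ := by simp only [mul_assoc]
    rw [hAdj_mul, h1, ← hgs]
    calc g * dag w * g⁻¹ * gs = g * (dag w * (g⁻¹ * gs)) := by simp only [mul_assoc]
      _ = g * (dag w * r) := by rw [hr]
      _ = g * (r * dag w) := by rw [hcr _ (hdagS w hwS)]
      _ = g * w := by rw [← hwr]
  · rw [Matrix.det_mul]
    exact mul_ne_zero hg hwdet
  · calc hAdj hF A * (g * w) * A = hAdj hF A * g * (w * A) := by simp only [mul_assoc]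
      _ = hAdj hF A * g * (A * w) := by rw [hcA w hwS]
      _ = (hAdj hF A * g * A) * w := by simp only [mul_assoc]
      _ = g * w := by rw [hc]

/-- A matrix with `A* g A = g`, `g` invertible, is similar to a unitary matrix. -/
theorem exists_unitary_of_form (hF : Fintype.card K = q ^ 2) (A g : Matrix (Fin n) (Fin n) K) (hA : A.det ≠ 0)
    (hg : g.det ≠ 0) (hc : hAdj hF A * g * A = g) :
    ∃ x B : Matrix (Fin n) (Fin n) K, x.det ≠ 0 ∧ hAdj hF B * B = 1 ∧ x * A = B * x := by
  classical
  obtain ⟨h, hh, hdet, hAh⟩ := exists_herm_of_form hF A g hA hg hc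
  obtain ⟨x, hx, -⟩ := exists_norm_of_herm hF h hh hdet
  have hxdet : x.det ≠ 0 := by
    intro h0
    apply hdet
    rw [← hx, Matrix.det_mul, h0, mul_zero]
  have hxu : IsUnit x.det := IsUnit.mk0 _ hxdet
  have hxi : x * x⁻¹ = 1 := Matrix.mul_nonsing_inv x hxu
  have hix : x⁻¹ * x = 1 := Matrix.nonsing_inv_mul x hxu
  refine ⟨x, x * A * x⁻¹, hxdet, ?_, ?_⟩
  · have hadj : hAdj hF (x⁻¹) * hAdj hF x = 1 := by
      rw [← hAdj_mul, hxi, hAdj_one]
    rw [hAdj_mul, hAdj_mul]
    calc hAdj hF x⁻¹ * (hAdj hF A * hAdj hF x) * (x * A * x⁻¹)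
        = hAdj hF x⁻¹ * (hAdj hF A * (hAdj hF x * x) * A) * x⁻¹ := by simp only [mul_assoc]
      _ = hAdj hF x⁻¹ * (hAdj hF x * x) * x⁻¹ := by rw [hx, hAh]
      _ = (hAdj hF x⁻¹ * hAdj hF x) * (x * x⁻¹) := by simp only [mul_assoc]
      _ = 1 := by rw [hadj, hxi, one_mul]
  · rw [mul_assoc, hix, mul_one]

end Cfsg.Agent.Lib.UConj
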