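import Mathlib
import Cfsg.Agent.Lib.UConj.Real
import Cfsg.Agent.Lib.KS2.Jordan2

/-!
Unipotent matrices are similar to the inverse of their adjoint.
-/

set_option autoImplicit false

namespace Cfsg.Agent.Lib.UConj

open Matrix Cfsg.Agent.Lib.Classical Cfsg.Agent.Lib.KS2.IsoCl Cfsg.Agent.Lib.KS2.Jordan

section rank

variable {K : Type*} [Field K] {n : ℕ}

lemma rank_mapMatrix (σ : K →+* K) (M : Matrix (Fin n) (Fin n) K) : (σ.mapMatrix M).rank = M.rank := by
  classical
  obtain ⟨V, U, e, hV, hU, h⟩ := Matrix.exists_rank_normal_form M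
  have hVd := (Matrix.isUnit_iff_isUnit_det _).mp hV
  have hUd := (Matrix.isUnit_iff_isUnit_det _).mp hU
  have hV' : IsUnit (σ.mapMatrix V) := hV.map σ.mapMatrix
  have hU' : IsUnit (σ.mapMatrix U) := hU.map σ.mapMatrix
  have hVd' := (Matrix.isUnit_iff_isUnit_det _).mp hV'
  have hUd' := (Matrix.isUnit_iff_isUnit_det _).mp hU'
  have h1 : M.rank = ((fromBlocks 1 0 0 0 : Matrix _ _ K).submatrix e e).rank := by
    rw [← h, Matrix.rank_mul_eq_left_of_isUnit_det U _ hUd, Matrix.rank_mul_eq_right_of_isUnit_det V _ hVd]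
  have h2 : σ.mapMatrix ((fromBlocks 1 0 0 0 : Matrix _ _ K).submatrix e e) = (fromBlocks 1 0 0 0 : Matrix _ _ K).submatrix e e := by
    ext i j
    simp only [RingHom.mapMatrix_apply, Matrix.map_apply, Matrix.submatrix_apply]
    rcases e i with a | a <;> rcases e j with b | b <;> simp [Matrix.one_apply] <;> split_ifs <;> simp
  have h3 : (σ.mapMatrix M).rank = ((fromBlocks 1 0 0 0 : Matrix _ _ K).submatrix e e).rank := by
    rw [← h2, ← h, map_mul, map_mul, Matrix.rank_mul_eq_left_of_isUnit_det _ _ hUd',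
      Matrix.rank_mul_eq_right_of_isUnit_det _ _ hVd']
  rw [h1, h3]

variable [Fintype K]

/-- Unipotent elements with the same ranks of powers are conjugate. -/
theorem isConj_of_rank_eq (g g' : GL (Fin n) K) (hg : IsNilpotent ((g : Matrix (Fin n) (Fin n) K) - 1))
    (hg' : IsNilpotent ((g' : Matrix (Fin n) (Fin n) K) - 1))
    (h : ∀ k, (((g : Matrix (Fin n) (Fin n) K) - 1) ^ k).rank = (((g' : Matrix (Fin n) (Fin n) K) - 1) ^ k).rank) :
    IsConj g g' := by
  classical
  obtain ⟨s, hs⟩ := exists_hasType_of_nil g hg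
  obtain ⟨s', hs'⟩ := exists_hasType_of_nil g' hg'
  have hss : s = s' := by
    apply multiset_unique (pos_of_hasType hs) (pos_of_hasType hs')
    intro k
    obtain ⟨m, e, b, hb, hpos, rfl⟩ := hs
    obtain ⟨m', e', b', hb', hpos', rfl⟩ := hs'
    have h1 := finrank_range_pow hb k
    have h2 := finrank_range_pow hb' k
    have hT : ∀ A : Matrix (Fin n) (Fin n) K, (Matrix.toLin' A) ^ k = Matrix.toLin' (A ^ k) := by
      intro A
      exact (map_pow (Matrix.toLinAlgEquiv' (R := K) (n := Fin n)) A k).symm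
    rw [hT] at h1 h2
    have h3 : ∀ A : Matrix (Fin n) (Fin n) K, Module.finrank K (LinearMap.range (Matrix.toLin' (A ^ k))) = (A ^ k).rank := by
      intro A
      rfl
    rw [h3] at h1 h2
    have h4 := h k
    simp only [Multiset.map_map, Function.comp]
    change ∑ i, (e i - k) = ∑ i, (e' i - k)
    rw [← h1, ← h2, h4]
  subst hss
  exact isConj_of_type hs hs'

end rank

variable {K : Type*} [Field K] [Fintype K] {q n : ℕ}

/-- A unipotent matrix is similar to the inverse of its adjoint. -/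
theorem isConj_inv_adj (hF : Fintype.card K = q ^ 2) (g : GL (Fin n) K)
    (hg : IsNilpotent ((g : Matrix (Fin n) (Fin n) K) - 1)) :
    IsConj (g : Matrix (Fin n) (Fin n) K) (hAdj hF (g : Matrix (Fin n) (Fin n) K))⁻¹ := by
  classical
  set G : Matrix (Fin n) (Fin n) K := (g : Matrix (Fin n) (Fin n) K) with hG
  have hGdet : G.det ≠ 0 := ((Matrix.isUnit_iff_isUnit_det _).mp g.isUnit).ne_zero
  have hGsdet : (hAdj hF G).det ≠ 0 := by
    rw [det_hAdj]
    intro h0
    apply hGdet
    have h1 := congrArg (conjQ hF) h0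
    rwa [conjQ_conjQ, map_zero] at h1
  have hu : IsUnit (hAdj hF G).det := IsUnit.mk0 _ hGsdet
  have hi1 := Matrix.mul_nonsing_inv (hAdj hF G) hu
  have hi2 := Matrix.nonsing_inv_mul (hAdj hF G) hu
  set I := (hAdj hF G)⁻¹ with hI
  let g' : GL (Fin n) K := ⟨I, hAdj hF G, hi2, hi1⟩
  set N := G - 1 with hN
  have hGN : hAdj hF G = hAdj hF N + 1 := by
    rw [← hAdj_one hF, ← hAdj_add, hN, sub_add_cancel]
  have hcomm : I * hAdj hF N = hAdj hF N * I := by
    have h1 : hAdj hF N = hAdj hF G - 1 := by rw [hGN, add_sub_cancel_right]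
    rw [h1, mul_sub, sub_mul, hi2, hi1, mul_one, one_mul]
  have hsub : I - 1 = I * (-hAdj hF N) := by
    have h1 : hAdj hF N = hAdj hF G - 1 := by rw [hGN, add_sub_cancel_right]
    rw [h1, mul_neg, mul_sub, hi2, mul_one]
    abel
  have hpow : ∀ k, (I - 1) ^ k = I ^ k * ((-1) ^ k * hAdj hF (N ^ k)) := by
    intro k
    rw [hsub, hAdj_pow]
    have hc : Commute I (-hAdj hF N) := by
      have : Commute I (hAdj hF N) := hcomm
      exact this.neg_right
    rw [hc.mul_pow, neg_pow]
  have hIu : IsUnit I := ⟨g', rfl⟩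
  have hnil : IsNilpotent ((g' : Matrix (Fin n) (Fin n) K) - 1) := by
    obtain ⟨k, hk⟩ := hg
    refine ⟨k, ?_⟩
    change (I - 1) ^ k = 0
    rw [hpow, hk]
    have h0 : hAdj hF (0 : Matrix (Fin n) (Fin n) K) = 0 := by
      ext i j
      simp only [hAdj_apply, Matrix.zero_apply]
      have := one_lt_q hF
      exact zero_pow (by omega)
    rw [h0, mul_zero, mul_zero]
  have hrank : ∀ k, ((G - 1) ^ k).rank = ((I - 1) ^ k).rank := by
    intro k
    rw [hpow]
    have h1 : IsUnit (I ^ k).det := (Matrix.isUnit_iff_isUnit_det _).mp (hIu.pow k)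
    have h2 : IsUnit (((-1) ^ k : Matrix (Fin n) (Fin n) K)).det :=
      (Matrix.isUnit_iff_isUnit_det _).mp ((IsUnit.neg isUnit_one).pow k)
    rw [Matrix.rank_mul_eq_right_of_isUnit_det _ _ h1, Matrix.rank_mul_eq_right_of_isUnit_det _ _ h2]
    rw [hAdj, Matrix.rank_transpose, rank_mapMatrix]
  have hcj := isConj_of_rank_eq g g' hg hnil hrank
  obtain ⟨c, hc⟩ := isConj_iff.mp hcj
  refine ⟨c, ?_⟩
  change (c : Matrix (Fin n) (Fin n) K) * G = I * (c : Matrix (Fin n) (Fin n) K)
  have h1 : c * g = g' * c := by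
    rw [← hc]
    group
  exact congrArg Units.val h1

end Cfsg.Agent.Lib.UConj
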